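import Cfsg.Agent.H984.DG.Gasch
import Cfsg.Agent.H791.Gen.Psl2
import Cfsg.Agent.H491.Gen.Rows
import Cfsg.Agent.H450.GenU.Main

/-!
# S4180, TEAM GEN, C2: the rows `psl2`, `psu3`, `sz`, `ree` of `Rows Cos2` (helper984)
-/

set_option autoImplicit false

namespace Cfsg.Agent.H984.DG

open Cfsg.Agent.H440.TwoGen Cfsg.Agent.H891.Gen Cfsg.Agent.H891.DG Subgroup

universe u v w

theorem finite_of {L : Type u} {M : Type v} [Group L] [Group M] [Finite L] (e : L ≃* M) : Finite M :=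
  Finite.of_equiv L e.toEquiv

/-- **`Rows.psl2` of `Rows Cos2`** -/
theorem cos2_psl2 : ∀ (T : Type u) [Group T] [Finite T] [IsSimpleGroup T] (F : Type) [Field F] [Fintype F],
    4 ≤ Fintype.card F → Nonempty (T ≃* Matrix.ProjectiveSpecialLinearGroup (Fin 2) F) → Cos2 T := by
  rintro T _ _ _ F _ _ hF ⟨e⟩
  have := finite_of e
  exact cos2_congr e (cos2_of_sub fun S hS => Cfsg.Agent.H791.Gen.twoGen_sub hF S hS)

/-- **`Rows.psu3` of `Rows Cos2`** -/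
theorem cos2_psu3 : ∀ (T : Type u) [Group T] [Finite T] [IsSimpleGroup T] (F : Type) [Field F] [Fintype F] (q : ℕ),
    3 ≤ q → Fintype.card F = q ^ 2 → Nonempty (T ≃* Cfsg.PSU 3 F q) → Cos2 T := by
  rintro T _ _ _ F _ _ q hq hF ⟨e⟩
  have := finite_of e
  exact cos2_congr e (cos2_of_sub fun S hS =>
    Cfsg.Agent.H450.GenU.twoGen_of_inn hF hq S fun x => hS ⟨x, rfl⟩)

/-- **`Rows.sz` of `Rows Cos2`** -/
theorem cos2_sz : ∀ (T : Type u) [Group T] [Finite T] [IsSimpleGroup T], Cfsg.Lie.IsoSuzuki T → Cos2 T := by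
  rintro T _ _ _ ⟨F, _, _, m, hm, hF, ⟨e⟩⟩
  exact cos2_of_row fun G _ N hN hc ⟨f⟩ => Cfsg.Agent.H491.Gen.Sz.twoGen hN hc hm hF (f.trans e)

/-- **`Rows.ree` of `Rows Cos2`** -/
theorem cos2_ree : ∀ (T : Type u) [Group T] [Finite T] [IsSimpleGroup T], Cfsg.Lie.IsoRee T → Cos2 T := by
  rintro T _ _ _ ⟨K, _, _, m, hm, hK, ⟨e⟩⟩
  exact cos2_of_row fun G _ N hN hc ⟨f⟩ => Cfsg.Agent.H491.Gen.Ree.twoGen hN hc hm hK (f.trans e)

end Cfsg.Agent.H984.DG
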